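import Cfsg.Agent.GlaubermanZJ.ZJ
import Cfsg.Agent.GlaubermanZJ.PStable
import Cfsg.Agent.GlaubermanZJ.EvenOrder
import Cfsg.Agent.GlaubermanZJ.CenterClosure
import Cfsg.Agent.Constrained.Basic
import Cfsg.Agent.Constrained.Fitting
import Cfsg.Agent.PGroup.Normal
import Cfsg.Agent.CommutingSLTwo.Basic
import Cfsg.Agent.TwoGroup.UniqueInvolution
import Mathlib.GroupTheory.Transfer
import Mathlib.GroupTheory.Nilpotent

/-!
Primitive pairs of characteristic `p`: with abelian Sylow `2`-subgroups there are none.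
-/

set_option autoImplicit false

open Cfsg
open scoped commutatorElement

namespace CfsgLib.LocalCharP.PrimitivePair

variable {p : ℕ}

/-- Abelian Sylow `2`-subgroups exclude `SL(2, p)`-sections. -/
theorem noSL2Section_of_abelian_two [hp : Fact p.Prime] (hp2 : p ≠ 2) {G : Type*} [Group G] [Finite G]
    (h2 : ∀ T : Sylow 2 G, IsMulCommutative T) : GlaubermanZJ.NoSL2Section p G := by
  intro X φ a b hab ha hb
  by_contra hnot
  set Y := φ.range
  set f := φ.rangeRestrict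
  have hf : Function.Surjective f := φ.rangeRestrict_surjective
  haveI : Finite Y := Finite.of_surjective f hf
  set ψ : ↥Y →* Matrix.SpecialLinearGroup (Fin 2) (GlaubermanZJ.FpBar p) := Y.subtype
  have hgen : Subgroup.closure ({f a, f b} : Set Y) = ⊤ := by
    rw [← Set.image_pair, ← MonoidHom.map_closure, hab, Subgroup.map_top_of_surjective _ hf]
  have heven : 2 ∣ Nat.card Y := by
    refine GlaubermanZJ.two_dvd_card_of_sl2 (p := p) ψ hgen ha hb fun hall => hnot fun y => ?_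
    obtain ⟨k, hk⟩ := hall y
    exact ⟨k, Subtype.ext hk⟩
  -- a Sylow `2`-subgroup of `Y` is cyclic
  obtain ⟨T⟩ : Nonempty (Sylow 2 Y) := inferInstance
  have hcomm : IsMulCommutative (T : Subgroup Y) := by
    refine GlaubermanZJ.forall_isMulCommutative_range (fun A hA => ?_) f hf _ T.isPGroup'
    have h := GlaubermanZJ.forall_isMulCommutative_of_sylow h2 (hA.map X.subtype)
    exact ⟨⟨fun x y => Subtype.ext (Subtype.ext (GlaubermanZJ.comm_apply h (x := ((x : X) : G))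
      (y := ((y : X) : G)) ⟨x.1, x.2, rfl⟩ ⟨y.1, y.2, rfl⟩))⟩⟩
  have h2K : (2 : GlaubermanZJ.FpBar p) ≠ 0 := by
    intro h
    have h' : ((2 : ℕ) : GlaubermanZJ.FpBar p) = 0 := by exact_mod_cast h
    exact hp2 ((Nat.prime_dvd_prime_iff_eq hp.out Nat.prime_two).1
      ((CharP.cast_eq_zero_iff (GlaubermanZJ.FpBar p) p 2).1 h'))
  have hone : ∀ x y : (T : Subgroup Y), orderOf x = 2 → orderOf y = 2 → x = y := by
    have key : ∀ x : (T : Subgroup Y), orderOf x = 2 →
        ψ (x : Y) = CommutingSLTwo.negOne (GlaubermanZJ.FpBar p) := by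
      intro x hx
      have hsq : ψ (x : Y) * ψ (x : Y) = 1 := by
        have h1 : x * x = 1 := by rw [← pow_two]; exact orderOf_dvd_iff_pow_eq_one.1 (dvd_of_eq hx)
        rw [← map_mul, ← Subgroup.coe_mul, h1, Subgroup.coe_one, map_one]
      refine (CommutingSLTwo.sq_eq_one h2K _ hsq).resolve_left fun h => ?_
      have : x = 1 := Subtype.ext (Y.subtype_injective (h.trans (map_one ψ).symm))
      rw [this, orderOf_one] at hx
      norm_num at hx
    exact fun x y hx hy => Subtype.ext (Y.subtype_injective ((key x hx).trans (key y hy).symm))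
  have hcyc : IsCyclic (T : Subgroup Y) :=
    TwoGroup.isCyclic_of_comm_atMostOneInvolution T.isPGroup' (fun u v => hcomm.is_comm.comm u v) hone
  have hmin : (Nat.card Y).minFac = 2 := (Nat.minFac_eq_two_iff _).2 heven
  have hN : Subgroup.normalizer ((T : Subgroup Y) : Set Y) ≤
      Subgroup.centralizer ((T : Subgroup Y) : Set Y) := IsCyclic.normalizer_le_centralizer hmin hcyc
  set τ := MonoidHom.transferSylow T hN
  have hker : τ.ker = ⊤ := by
    rw [eq_top_iff, ← hgen, Subgroup.closure_le]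
    have key : ∀ w : Y, w ^ p = 1 → w ∈ τ.ker := by
      intro w hw
      rw [MonoidHom.mem_ker]
      obtain ⟨k, hk⟩ := T.isPGroup' (τ w)
      refine orderOf_eq_one_iff.1 (Nat.Coprime.eq_one_of_dvd
        (((Nat.coprime_primes hp.out Nat.prime_two).2 hp2).pow_right k |>.coprime_dvd_left
          (orderOf_dvd_of_pow_eq_one (by rw [← map_pow, hw, map_one]))) (orderOf_dvd_of_pow_eq_one hk))
    rintro z (rfl | rfl)
    · exact key _ (Subtype.ext ha)
    · exact key _ (Subtype.ext hb)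
  refine MonoidHom.not_dvd_card_ker_transferSylow T hN ?_
  rw [show (MonoidHom.transferSylow T hN).ker = ⊤ from hker, Subgroup.card_top]
  exact heven

/-- A `p`-subgroup normalized by `C(U)` that acts quadratically on `U` lies in `O_p`. -/
theorem le_pCore_of_quadratic [hp : Fact p.Prime] {M : Type*} [Group M] [Finite M]
    (hst : ∀ (P : Subgroup M) [P.Normal], IsPGroup p P → IsPStableOn p P)
    (U : Subgroup M) [U.Normal] (hU : IsPGroup p U) (F : Subgroup M) (hF : IsPGroup p F)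
    (hKF : Subgroup.centralizer (U : Set M) ≤ Subgroup.normalizer (F : Set M))
    {A : Subgroup M} (hAF : A ≤ F) (hq : ⁅⁅U, A⁆, A⁆ = ⊥) : A ≤ pCore p M := by
  set K := Subgroup.centralizer (U : Set M) with hK
  haveI hKn : K.Normal := Subgroup.normal_centralizer
  set L := (pCore p (M ⧸ K)).comap (QuotientGroup.mk' K) with hL
  have hAL : A ≤ L := GlaubermanZJ.mem_comap_of_isPStableOn (hst U hU) hq
  haveI : (pCore p (M ⧸ K)).Normal := pCore_normal p _
  haveI hLn : L.Normal := Subgroup.Normal.comap inferInstance _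
  set Q := pCore p M with hQ
  haveI : Q.Normal := pCore_normal p M
  set π := QuotientGroup.mk' Q with hπ
  have hsurj : Function.Surjective π := QuotientGroup.mk'_surjective Q
  haveI : (K.map π).Normal := hKn.map π hsurj
  haveI : (L.map π).Normal := hLn.map π hsurj
  haveI : (Subgroup.centralizer ((K.map π : Subgroup (M ⧸ Q)) : Set (M ⧸ Q))).Normal :=
    Subgroup.normal_centralizer
  set X := L.map π ⊓ Subgroup.centralizer ((K.map π : Subgroup (M ⧸ Q)) : Set (M ⧸ Q)) with hX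
  haveI hXn : X.Normal := inferInstance
  have hKFQ : K ⊓ F ≤ Q := by
    haveI : ((K ⊓ F).subgroupOf K).Normal := by
      refine Subgroup.normal_subgroupOf_of_le_normalizer fun k hk => ?_
      rw [Subgroup.mem_normalizer_iff_map_conj_eq, Subgroup.map_inf _ _ _ (MulAut.conj k).injective,
        Subgroup.mem_normalizer_iff_map_conj_eq.1 (hKF hk),
        Subgroup.mem_normalizer_iff_map_conj_eq.1 (Subgroup.le_normalizer hk)]
    intro x hx
    have h1 : (⟨x, hx.1⟩ : K) ∈ pCore p K := CfsgLib.Constrained.le_pCore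
      (N := (K ⊓ F).subgroupOf K) inferInstance
      ((hF.to_le inf_le_right).comap_of_injective K.subtype K.subtype_injective)
      (show (⟨x, hx.1⟩ : K) ∈ (K ⊓ F).subgroupOf K from hx)
    exact CfsgLib.Constrained.map_pCore_subgroup_le K ⟨_, h1, rfl⟩
  have hAX : A.map π ≤ X := by
    rintro _ ⟨a, ha, rfl⟩
    refine ⟨⟨a, hAL ha, rfl⟩, Subgroup.mem_centralizer_iff.2 ?_⟩
    rintro _ ⟨k, hk, rfl⟩
    have hmem : k * a * k⁻¹ * a⁻¹ ∈ K ⊓ F := by
      refine ⟨?_, mul_mem ((Subgroup.mem_normalizer_iff.1 (hKF hk) a).1 (hAF ha)) (F.inv_mem (hAF ha))⟩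
      rw [show k * a * k⁻¹ * a⁻¹ = k * (a * k⁻¹ * a⁻¹) by group]
      exact mul_mem hk (hKn.conj_mem _ (K.inv_mem hk) a)
    have h1 : π (k * a * k⁻¹ * a⁻¹) = 1 := (QuotientGroup.eq_one_iff _).2 (hKFQ hmem)
    calc π k * π a = π (k * a * k⁻¹ * a⁻¹) * (π a * π k) := by simp only [map_mul, map_inv]; group
      _ = π a * π k := by rw [h1, one_mul]
  -- `X` is nilpotent
  have hquot : IsPGroup p (↥X ⧸ Subgroup.center ↥X) := by
    intro z
    obtain ⟨x, rfl⟩ := QuotientGroup.mk'_surjective (Subgroup.center ↥X) z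
    obtain ⟨l, hl, hlx⟩ := x.2.1
    obtain ⟨k, hk⟩ := (CfsgLib.Constrained.isPGroup_pCore (p := p) (G := M ⧸ K))
      ⟨QuotientGroup.mk' K l, hl⟩
    refine ⟨k, (QuotientGroup.eq_one_iff (x ^ p ^ k)).2 (Subgroup.mem_center_iff.2 fun y => ?_)⟩
    have hlK : l ^ p ^ k ∈ K := by
      rw [← QuotientGroup.eq_one_iff]
      have := congrArg Subtype.val hk
      simpa using this
    apply Subtype.ext
    have h1 := Subgroup.mem_centralizer_iff.1 y.2.2 _ ⟨_, hlK, rfl⟩
    rw [Subgroup.coe_mul, Subgroup.coe_mul, Subgroup.coe_pow, ← hlx, ← map_pow]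
    exact h1.symm
  have hnil : Group.IsNilpotent ↥X := Group.of_quotient_center_nilpotent hquot.isNilpotent
  have hAp : IsPGroup p ((A.map π).subgroupOf X) :=
    ((hF.to_le hAF).map π).comap_of_injective X.subtype X.subtype_injective
  obtain ⟨P, hP⟩ := hAp.exists_le_sylow
  intro a ha
  have h1 : π a ∈ pCore p (M ⧸ Q) := CfsgLib.Constrained.map_sylow_le_pCore hXn hnil P
    ⟨⟨π a, hAX ⟨a, ha, rfl⟩⟩, hP ⟨a, ha, rfl⟩, rfl⟩
  rw [CfsgLib.Constrained.pCore_quotient_pCore, Subgroup.mem_bot] at h1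
  exact (QuotientGroup.eq_one_iff a).1 h1

/-- A nontrivial normal `p`-subgroup contains an abelian normal `p`-subgroup `X` with `O_p(M/C(X)) = 1`. -/
theorem exists_reduced [hp : Fact p.Prime] {M : Type*} [Group M] [Finite M] (h : pCore p M ≠ ⊥) :
    ∃ (X : Subgroup M) (_ : X.Normal), X ≤ pCore p M ∧ X ≠ ⊥ ∧ IsMulCommutative X ∧
      pCore p (M ⧸ Subgroup.centralizer (X : Set M)) = ⊥ := by
  classical
  haveI := Fintype.ofFinite (Subgroup M)
  obtain ⟨X, hXmem, hmin⟩ := Finset.exists_min_image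
    ({X : Subgroup M | X.Normal ∧ X ≠ ⊥ ∧ X ≤ pCore p M} : Finset (Subgroup M)) (fun X => Nat.card X)
    ⟨pCore p M, by simp [h, pCore_normal p M]⟩
  simp only [Finset.mem_filter, Finset.mem_univ, true_and] at hXmem hmin
  obtain ⟨hXn, hX1, hXQ⟩ := hXmem
  haveI := hXn
  have hXp : IsPGroup p X := CfsgLib.Constrained.isPGroup_pCore.to_le hXQ
  have hsmall : ∀ Y : Subgroup M, Y.Normal → Y ≤ X → Y ≠ ⊥ → X ≤ Y := fun Y hY hYX hY1 =>
    (Subgroup.eq_of_le_of_card_ge hYX (hmin Y ⟨hY, hY1, hYX.trans hXQ⟩)).ge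
  have hab : ⁅X, X⁆ = ⊥ := by
    by_contra hne
    have hlt := GlaubermanZJ.commutator_lt_of_isPGroup hXp hX1
    exact hlt.not_ge (hsmall _ inferInstance hlt.le hne)
  refine ⟨X, hXn, hXQ, hX1, Subgroup.le_centralizer_iff_isMulCommutative.1
    (Subgroup.commutator_eq_bot_iff_le_centralizer.1 hab), ?_⟩
  refine GlaubermanZJ.pCore_quotient_centralizer_eq_bot X ?_
  set W := ⨆ S : Sylow p M, X ⊓ Subgroup.centralizer ((S : Subgroup M) : Set M) with hW
  refine hsmall W ⟨fun w hw g => ?_⟩ (iSup_le fun S => inf_le_left) ?_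
  · have hle : W.map (MulAut.conj g).toMonoidHom ≤ W := by
      rw [hW, Subgroup.map_iSup]
      refine iSup_le fun S => le_trans ?_ (le_iSup _ (g • S))
      rintro _ ⟨x, ⟨hxX, hxC⟩, rfl⟩
      refine ⟨hXn.conj_mem x hxX g, Subgroup.mem_centralizer_iff.2 fun y hy => ?_⟩
      rw [SetLike.mem_coe, Sylow.coe_subgroup_smul] at hy
      obtain ⟨z, hz, rfl⟩ := hy
      change (MulAut.conj g) z * (MulAut.conj g) x = (MulAut.conj g) x * (MulAut.conj g) z
      rw [← map_mul, ← map_mul, Subgroup.mem_centralizer_iff.1 hxC z hz]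
    exact hle ⟨w, hw, rfl⟩
  · obtain ⟨S⟩ : Nonempty (Sylow p M) := inferInstance
    intro hW1
    have hXS : X ≤ (S : Subgroup M) := hXp.le_sylow_of_normal S
    have hne : X.subgroupOf S ≠ ⊥ := by
      rw [Ne, Subgroup.subgroupOf_eq_bot, disjoint_iff, inf_eq_left.2 hXS]
      exact hX1
    obtain ⟨z, hz, hz1⟩ := (Subgroup.bot_or_exists_ne_one _).resolve_left
      (CfsgLib.PGroup.inf_center_ne_bot S.isPGroup' (X.subgroupOf S) hne)
    have hzW : (z : M) ∈ W := le_iSup (fun T : Sylow p M => X ⊓ Subgroup.centralizer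
      ((T : Subgroup M) : Set M)) S ⟨hz.1, Subgroup.mem_centralizer_iff.2 fun y hy =>
        congrArg Subtype.val (Subgroup.mem_center_iff.1 hz.2 ⟨y, hy⟩)⟩
    rw [hW1, Subgroup.mem_bot] at hzW
    exact hz1 (Subtype.ext hzW)

variable {G : Type*} [Group G]

theorem commutator_subgroupOf_eq_bot {M V A : Subgroup G} (hV : V ≤ M) (hA : A ≤ M)
    (h : ⁅⁅V, A⁆, A⁆ = ⊥) : ⁅⁅V.subgroupOf M, A.subgroupOf M⁆, A.subgroupOf M⁆ = ⊥ := by
  apply (Subgroup.map_eq_bot_iff_of_injective _ M.subtype_injective).1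
  rwa [Subgroup.map_commutator, Subgroup.map_commutator, Subgroup.map_subgroupOf_eq_of_le hV,
    Subgroup.map_subgroupOf_eq_of_le hA]

/-- A normal abelian subgroup normalizing the abelian subgroup `A` is acted on quadratically by `A`. -/
theorem quadratic_of_normalizes {V A : Subgroup G} (hA : IsMulCommutative A)
    (hVA : V ≤ Subgroup.normalizer (A : Set G)) : ⁅⁅V, A⁆, A⁆ = ⊥ := by
  rw [eq_bot_iff, ← (Subgroup.commutator_eq_bot_iff_le_centralizer.2
    (Subgroup.le_centralizer_iff_isMulCommutative.2 hA) : ⁅A, A⁆ = ⊥)]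
  refine Subgroup.commutator_mono ?_ le_rfl
  rw [Subgroup.commutator_le]
  intro b hb a ha
  rw [commutatorElement_def]
  exact mul_mem ((Subgroup.mem_normalizer_iff.1 (hVA hb) a).1 ha) (inv_mem ha)

/-- Quadratic action on a reduced normal `p`-subgroup is trivial. -/
theorem le_centralizer_of_quadratic [hp : Fact p.Prime] {M X A : Subgroup G} [Finite G]
    (hst : ∀ (P : Subgroup M) [P.Normal], IsPGroup p P → IsPStableOn p P)
    [hXn : (X.subgroupOf M).Normal] (hXM : X ≤ M) (hXp : IsPGroup p X)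
    (hred : pCore p (M ⧸ Subgroup.centralizer ((X.subgroupOf M : Subgroup M) : Set M)) = ⊥)
    (hAM : A ≤ M) (hq : ⁅⁅X, A⁆, A⁆ = ⊥) : A ≤ Subgroup.centralizer (X : Set G) := by
  intro a ha
  have h := GlaubermanZJ.mem_comap_of_isPStableOn
    (hst (X.subgroupOf M) (hXp.comap_of_injective M.subtype M.subtype_injective))
    (commutator_subgroupOf_eq_bot hXM hAM hq) (show (⟨a, hAM ha⟩ : M) ∈ A.subgroupOf M from ha)
  rw [Subgroup.mem_comap, hred, Subgroup.mem_bot] at h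
  have h' := (QuotientGroup.eq_one_iff _).1 h
  exact Subgroup.mem_centralizer_iff.2 fun x hx =>
    congrArg Subtype.val (Subgroup.mem_centralizer_iff.1 h' ⟨x, hXM hx⟩ hx)

/-- A reduced abelian normal `p`-subgroup of `M` lies in all largest abelian subgroups of `p`-subgroups of `M`
containing it. -/
theorem le_of_maxIn [hp : Fact p.Prime] (hp2 : p ≠ 2) [Finite G] {M X R : Subgroup G}
    (hst : ∀ (P : Subgroup M) [P.Normal], IsPGroup p P → IsPStableOn p P)
    [hXn : (X.subgroupOf M).Normal] (hXc : IsMulCommutative X)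
    (hred : pCore p (M ⧸ Subgroup.centralizer ((X.subgroupOf M : Subgroup M) : Set M)) = ⊥)
    (hR : IsPGroup p R) (hRM : R ≤ M) (hXR : X ≤ R) :
    ∀ A ∈ GlaubermanZJ.maxIn (fun A : Subgroup G => IsMulCommutative A) R, X ≤ A := by
  by_contra hcon
  push Not at hcon
  obtain ⟨A₀, hA₀, hA₀'⟩ := hcon
  obtain ⟨A, ⟨hA, hAX⟩, hmax⟩ := Set.exists_max_image
    {A | A ∈ GlaubermanZJ.maxIn (fun A : Subgroup G => IsMulCommutative A) R ∧ ¬ X ≤ A}
    (fun A => Nat.card ↥(A ⊓ X)) (Set.toFinite _) ⟨A₀, hA₀, hA₀'⟩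
  have hXX : ⁅X, X⁆ = ⊥ := Subgroup.commutator_eq_bot_iff_le_centralizer.2
    (Subgroup.le_centralizer_iff_isMulCommutative.2 hXc)
  have hMX : M ≤ Subgroup.normalizer (X : Set G) :=
    Subgroup.le_normalizer_of_normal_subgroupOf (hK := hXn) (hXR.trans hRM)
  by_cases hXA : X ≤ Subgroup.normalizer (A : Set G)
  · have hc := le_centralizer_of_quadratic hst (hXR.trans hRM) (hR.to_le hXR) hred (hA.1.trans hRM)
      (quadratic_of_normalizes hA.2.1 hXA)
    refine hAX fun x hx => GlaubermanZJ.mem_of_centralizes_abelian hA (hXR hx)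
      fun a ha => ?_
    exact (Subgroup.mem_centralizer_iff.1 (hc ha) x hx).symm
  · obtain ⟨A', hA'R, hA'c, hcard, hlt, hA'N, -⟩ := GlaubermanZJ.glauberman_replacement_in_le hp2 hR le_rfl
      Subgroup.le_normalizer hA.1 hXR hA.2.1 (by rw [hXX, Subgroup.commutator_bot_left])
      (by rw [hXX]; exact bot_le) ((hA.1.trans hRM).trans hMX) hXA
    by_cases hXA' : X ≤ A'
    · exact hXA (hXA'.trans hA'N)
    · exact absurd (hmax A' ⟨⟨hA'R, hA'c, fun C h1 h2 => hcard ▸ hA.2.2 C h1 h2⟩, hXA'⟩)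
        (not_le.2 (Set.ncard_lt_ncard (SetLike.coe_strictMono hlt) (Set.toFinite _)))

/-- The image of `O_p(M)` in the ambient group. -/
abbrev core (p : ℕ) (M : Subgroup G) : Subgroup G := (pCore p M).map M.subtype

theorem le_normalizer_core (p : ℕ) (M : Subgroup G) : M ≤ Subgroup.normalizer (core p M : Set G) := by
  intro m hm
  haveI := pCore_normal p M
  exact Subgroup.le_normalizer_map M.subtype ⟨⟨m, hm⟩, Subgroup.le_normalizer_of_normal
    (Subgroup.mem_top _), rfl⟩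

theorem le_core [Finite G] [Fact p.Prime] {M V : Subgroup G} (hV : IsPGroup p V) (hVM : V ≤ M)
    (hn : M ≤ Subgroup.normalizer (V : Set G)) : V ≤ core p M := by
  haveI : (V.subgroupOf M).Normal := Subgroup.normal_subgroupOf_of_le_normalizer hn
  intro v hv
  exact ⟨⟨v, hVM hv⟩, CfsgLib.Constrained.le_pCore (N := V.subgroupOf M) inferInstance
    (hV.comap_of_injective M.subtype M.subtype_injective)
    (show (⟨v, hVM hv⟩ : M) ∈ V.subgroupOf M from hv), rfl⟩

theorem isPGroup_core [Finite G] [Fact p.Prime] (M : Subgroup G) : IsPGroup p (core p M) :=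
  CfsgLib.Constrained.isPGroup_pCore.map _

/-- One side of the argument: the largest abelian subgroups of `O_p(M₁ ∩ M₂)` lie in `O_p(M₁)`. -/
theorem maxIn_le_core [hp : Fact p.Prime] (hp2 : p ≠ 2) [Finite G] (M₁ M₂ : Subgroup G)
    (hst₁ : ∀ (P : Subgroup M₁) [P.Normal], IsPGroup p P → IsPStableOn p P)
    (hst₂ : ∀ (P : Subgroup M₂) [P.Normal], IsPGroup p P → IsPStableOn p P)
    (hc₁ : Subgroup.centralizer (pCore p M₁ : Set M₁) ≤ pCore p M₁)
    (hne₂ : pCore p M₂ ≠ ⊥)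
    (h₁B : core p M₁ ≤ M₁ ⊓ M₂) (h₂B : core p M₂ ≤ M₁ ⊓ M₂)
    (hP : ∀ A : Subgroup G, A ≠ ⊥ → A ≤ M₁ ⊓ M₂ → M₂ ≤ Subgroup.normalizer (A : Set G) →
      M₁ ⊓ Subgroup.normalizer (A : Set G) = M₁ ⊓ M₂) :
    ∃ X : Subgroup G, X ≠ ⊥ ∧
      ∀ A ∈ GlaubermanZJ.maxIn (fun A : Subgroup G => IsMulCommutative A) (core p (M₁ ⊓ M₂)),
        A ≤ core p M₁ ∧ X ≤ A := by
  set B := M₁ ⊓ M₂ with hB
  set F := core p B with hF
  set Q := core p M₁ with hQ
  have hFB : F ≤ B := Subgroup.map_subtype_le _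
  have hFp : IsPGroup p F := isPGroup_core B
  have hQF : Q ≤ F := le_core (isPGroup_core M₁) h₁B (inf_le_left.trans (le_normalizer_core p M₁))
  have hQ2F : core p M₂ ≤ F :=
    le_core (isPGroup_core M₂) h₂B (inf_le_right.trans (le_normalizer_core p M₂))
  obtain ⟨X₀, hX₀n, hX₀Q, hX₀1, hX₀c, hred⟩ := exists_reduced hne₂
  set X := X₀.map M₂.subtype with hXdef
  have hX1 : X ≠ ⊥ := fun h => hX₀1 ((Subgroup.map_eq_bot_iff_of_injective _ M₂.subtype_injective).1 h)
  have hXsub : X.subgroupOf M₂ = X₀ := Subgroup.comap_map_eq_self_of_injective M₂.subtype_injective X₀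
  haveI hXn : (X.subgroupOf M₂).Normal := hXsub.symm ▸ hX₀n
  have hXc : IsMulCommutative X := GlaubermanZJ.isMulCommutative_map _ hX₀c
  have hXF : X ≤ F := (Subgroup.map_mono hX₀Q).trans hQ2F
  have hXM₂ : X ≤ M₂ := Subgroup.map_subtype_le _
  have hM₂X : M₂ ≤ Subgroup.normalizer (X : Set G) := Subgroup.le_normalizer_of_normal_subgroupOf (hK := hXn) hXM₂
  have hred' : pCore p (M₂ ⧸ Subgroup.centralizer ((X.subgroupOf M₂ : Subgroup M₂) : Set M₂)) = ⊥ := by
    have key : ∀ (Y : Subgroup M₂) (_ : Y.Normal), Y = X₀ →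
        pCore p (M₂ ⧸ Subgroup.centralizer (Y : Set M₂)) = ⊥ := by
      rintro Y _ rfl; exact hred
    exact key _ hXn hXsub
  -- a subgroup acting quadratically on a suitable normal subgroup lies in `Q`
  have hcrit : ∀ (U A : Subgroup G), U ≤ M₁ → IsPGroup p U → M₁ ≤ Subgroup.normalizer (U : Set G) →
      M₁ ⊓ Subgroup.centralizer (U : Set G) ≤ B → A ≤ F → ⁅⁅U, A⁆, A⁆ = ⊥ → A ≤ Q := by
    intro U A hUM hUp hUn hUC hAF hq
    have hAM : A ≤ M₁ := (hAF.trans hFB).trans inf_le_left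
    haveI : (U.subgroupOf M₁).Normal := Subgroup.normal_subgroupOf_of_le_normalizer hUn
    have h := le_pCore_of_quadratic hst₁ (U.subgroupOf M₁)
      (hUp.comap_of_injective M₁.subtype M₁.subtype_injective) (F.subgroupOf M₁)
      (hFp.comap_of_injective M₁.subtype M₁.subtype_injective) (fun k hk => by
        have hkB : (k : G) ∈ B := hUC ⟨k.2, Subgroup.mem_centralizer_iff.2 fun u hu =>
          congrArg Subtype.val (Subgroup.mem_centralizer_iff.1 hk ⟨u, hUM hu⟩ hu)⟩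
        refine Subgroup.mem_normalizer_iff.2 fun z => ?_
        exact Subgroup.mem_normalizer_iff.1 (le_normalizer_core p B hkB) (z : G))
      (A := A.subgroupOf M₁) (Subgroup.comap_mono hAF) (commutator_subgroupOf_eq_bot hUM hAM hq)
    intro a ha
    exact ⟨⟨a, hAM ha⟩, h (show (⟨a, hAM ha⟩ : M₁) ∈ A.subgroupOf M₁ from ha), rfl⟩
  have hQC : M₁ ⊓ Subgroup.centralizer (Q : Set G) ≤ B := by
    rintro m ⟨hm, hmc⟩
    refine h₁B ⟨⟨m, hm⟩, hc₁ (Subgroup.mem_centralizer_iff.2 fun z hz => Subtype.ext ?_), rfl⟩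
    exact Subgroup.mem_centralizer_iff.1 hmc _ ⟨z, hz, rfl⟩
  have hXQ : X ≤ Q := hcrit Q X (Subgroup.map_subtype_le _) (isPGroup_core M₁) (le_normalizer_core p M₁) hQC
    hXF (quadratic_of_normalizes hXc (((h₁B.trans inf_le_right) : Q ≤ M₂).trans hM₂X))
  -- the normal closure of `X` in `M₁`
  set U := Subgroup.closure {z : G | ∃ g ∈ M₁, ∃ x ∈ X, g * x * g⁻¹ = z} with hUdef
  have hUQ : U ≤ Q := by
    rw [hUdef, Subgroup.closure_le]
    rintro _ ⟨g, hg, x, hx, rfl⟩
    exact (Subgroup.mem_normalizer_iff.1 (le_normalizer_core p M₁ hg) x).1 (hXQ hx)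
  have hUn : M₁ ≤ Subgroup.normalizer (U : Set G) := by
    intro m hm
    rw [Subgroup.mem_normalizer_iff_map_conj_eq]
    refine Subgroup.eq_of_le_of_card_ge ?_
      (Subgroup.card_map_of_injective (MulAut.conj m).injective).ge
    rw [hUdef, MonoidHom.map_closure, Subgroup.closure_le]
    rintro _ ⟨_, ⟨g, hg, x, hx, rfl⟩, rfl⟩
    refine Subgroup.subset_closure ⟨m * g, mul_mem hm hg, x, hx, ?_⟩
    show _ = m * (g * x * g⁻¹) * m⁻¹
    group
  have hcomm : ∀ g ∈ M₁, ∀ x ∈ X, ∀ y ∈ X, g * x * g⁻¹ * y = y * (g * x * g⁻¹) := by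
    intro g hg x hx y hy
    set Xg := X.map (MulAut.conj g).toMonoidHom with hXg
    have hgQ : Xg ≤ Q := by
      rintro _ ⟨z, hz, rfl⟩
      exact (Subgroup.mem_normalizer_iff.1 (le_normalizer_core p M₁ hg) z).1 (hXQ hz)
    have hXN : X ≤ Subgroup.normalizer (Xg : Set G) := by
      intro z hz
      have h1 : g⁻¹ * z * g ∈ Q := by
        have := (Subgroup.mem_normalizer_iff.1 (le_normalizer_core p M₁ (inv_mem hg)) z).1 (hXQ hz)
        rwa [inv_inv] at this
      have h2 := Subgroup.le_normalizer_map (MulAut.conj g).toMonoidHom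
        (H := X) ⟨_, hM₂X (h₁B h1).2, rfl⟩
      simpa [hXg, mul_assoc] using h2
    have hc := le_centralizer_of_quadratic hst₂ hXM₂ ((hFp).to_le hXF) hred'
      (hgQ.trans (h₁B.trans inf_le_right))
      (quadratic_of_normalizes (GlaubermanZJ.isMulCommutative_map _ hXc) hXN)
    exact (Subgroup.mem_centralizer_iff.1 (hc ⟨x, hx, rfl⟩) y hy).symm
  have hUc : IsMulCommutative U := by
    refine Subgroup.le_centralizer_iff_isMulCommutative.1 ?_
    rw [hUdef, Subgroup.closure_le]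
    rintro _ ⟨g, hg, x, hx, rfl⟩
    rw [SetLike.mem_coe, Subgroup.centralizer_closure, Subgroup.mem_centralizer_iff]
    rintro _ ⟨h, hh, y, hy, rfl⟩
    have h1 := hcomm (h⁻¹ * g) (mul_mem (inv_mem hh) hg) x hx y hy
    calc h * y * h⁻¹ * (g * x * g⁻¹) = h * (y * (h⁻¹ * g * x * (h⁻¹ * g)⁻¹)) * h⁻¹ := by group
      _ = h * (h⁻¹ * g * x * (h⁻¹ * g)⁻¹ * y) * h⁻¹ := by rw [h1]
      _ = g * x * g⁻¹ * (h * y * h⁻¹) := by group
  have hUC : M₁ ⊓ Subgroup.centralizer (U : Set G) ≤ B := by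
    rw [← hP X hX1 (hXF.trans hFB) hM₂X]
    refine inf_le_inf_left _ ((Subgroup.centralizer_le ?_).trans (Subgroup.centralizer_le_normalizer _))
    intro x hx
    exact Subgroup.subset_closure ⟨1, one_mem _, x, hx, by group⟩
  have hUmax : ∀ A ∈ GlaubermanZJ.maxIn (fun A : Subgroup G => IsMulCommutative A) Q, U ≤ A := by
    intro A hA
    rw [hUdef, Subgroup.closure_le]
    rintro _ ⟨g, hg, x, hx, rfl⟩
    have hgQ := Subgroup.mem_normalizer_iff_map_conj_eq.1 (le_normalizer_core p M₁ (inv_mem hg))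
    have hA' : A.map (MulAut.conj g⁻¹).toMonoidHom ∈
        GlaubermanZJ.maxIn (fun A : Subgroup G => IsMulCommutative A) Q := by
      refine ⟨(Subgroup.map_mono hA.1).trans hgQ.le, GlaubermanZJ.isMulCommutative_map _ hA.2.1, fun C h1 h2 => ?_⟩
      rw [Subgroup.card_map_of_injective (MulAut.conj g⁻¹).injective]
      exact hA.2.2 C h1 h2
    obtain ⟨a, ha, hax⟩ := le_of_maxIn hp2 hst₂ hXc hred' (isPGroup_core M₁)
      (h₁B.trans inf_le_right) hXQ _ hA' hx
    rw [← hax]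
    simpa [mul_assoc] using ha
  have hUM : U ≤ M₁ := hUQ.trans (Subgroup.map_subtype_le _)
  have hall : ∀ A ∈ GlaubermanZJ.maxIn (fun A : Subgroup G => IsMulCommutative A) F, A ≤ Q := by
    by_contra hcon
    push Not at hcon
    obtain ⟨A₀, hA₀, hA₀'⟩ := hcon
    obtain ⟨A, ⟨hA, hAQ⟩, hmax⟩ := Set.exists_max_image
      {A | A ∈ GlaubermanZJ.maxIn (fun A : Subgroup G => IsMulCommutative A) F ∧ ¬ A ≤ Q}
      (fun A => Nat.card ↥(A ⊓ U)) (Set.toFinite _) ⟨A₀, hA₀, hA₀'⟩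
    by_cases hUA : U ≤ Subgroup.normalizer (A : Set G)
    · exact hAQ (hcrit U A hUM (hFp.to_le (hUQ.trans hQF)) hUn hUC hA.1
        (quadratic_of_normalizes hA.2.1 hUA))
    · have hUU : ⁅U, U⁆ = ⊥ := Subgroup.commutator_eq_bot_iff_le_centralizer.2
        (Subgroup.le_centralizer_iff_isMulCommutative.2 hUc)
      obtain ⟨A', hA'F, hA'c, hcard, hlt, hA'N, -⟩ := GlaubermanZJ.glauberman_replacement_in_le hp2 hFp
        le_rfl Subgroup.le_normalizer hA.1 (hUQ.trans hQF) hA.2.1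
        (by rw [hUU, Subgroup.commutator_bot_left]) (by rw [hUU]; exact bot_le)
        (((hA.1.trans hFB).trans inf_le_left).trans hUn) hUA
      have hA' : A' ∈ GlaubermanZJ.maxIn (fun A : Subgroup G => IsMulCommutative A) F :=
        ⟨hA'F, hA'c, fun C h1 h2 => hcard ▸ hA.2.2 C h1 h2⟩
      by_cases hA'Q : A' ≤ Q
      · exact hUA ((hUmax A' ⟨hA'Q, hA'c, fun C h1 h2 => hA'.2.2 C (h1.trans hQF) h2⟩).trans hA'N)
      · exact absurd (hmax A' ⟨hA', hA'Q⟩)
          (not_le.2 (Set.ncard_lt_ncard (SetLike.coe_strictMono hlt) (Set.toFinite _)))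
  refine ⟨X, hX1, fun A hA => ⟨hall A hA, le_trans ?_ (hUmax A ⟨hall A hA, hA.2.1, fun C h1 h2 =>
    hA.2.2 C (h1.trans hQF) h2⟩)⟩⟩
  intro x hx
  exact Subgroup.subset_closure ⟨1, one_mem _, x, hx, by group⟩

/-- `O_p(M)` is the Sylow `2`-subgroup when `p = 2` and it is abelian. -/
theorem le_core_two [Finite G] {M V : Subgroup G}
    (hc : Subgroup.centralizer (pCore 2 M : Set M) ≤ pCore 2 M)
    (h2 : ∀ T : Sylow 2 M, IsMulCommutative T) (hV : IsPGroup 2 V) (hVM : V ≤ M) : V ≤ core 2 M := by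
  obtain ⟨T, hT⟩ := (hV.comap_of_injective M.subtype M.subtype_injective).exists_le_sylow
  have hQT : pCore 2 M ≤ (T : Subgroup M) :=
    IsPGroup.le_sylow_of_normal CfsgLib.Constrained.isPGroup_pCore T
  intro v hv
  refine ⟨⟨v, hVM hv⟩, hc (Subgroup.mem_centralizer_iff.2 fun z hz => ?_), rfl⟩
  exact GlaubermanZJ.comm_apply (h2 T) (hQT hz) (hT (show (⟨v, hVM hv⟩ : M) ∈ V.subgroupOf M from hv))

/-- No primitive pair of characteristic `p` has abelian Sylow `2`-subgroups in both members. -/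
theorem false_of_pair [hp : Fact p.Prime] [Finite G] (M₁ M₂ : Subgroup G) (hne : M₁ ≠ M₂)
    (hP : ∀ A : Subgroup G, A ≠ ⊥ → A ≤ M₁ ⊓ M₂ →
      (M₁ ≤ Subgroup.normalizer (A : Set G) → M₂ ⊓ Subgroup.normalizer (A : Set G) = M₁ ⊓ M₂) ∧
      (M₂ ≤ Subgroup.normalizer (A : Set G) → M₁ ⊓ Subgroup.normalizer (A : Set G) = M₁ ⊓ M₂))
    (hc₁ : Subgroup.centralizer (pCore p M₁ : Set M₁) ≤ pCore p M₁)
    (hc₂ : Subgroup.centralizer (pCore p M₂ : Set M₂) ≤ pCore p M₂)
    (hO : core p M₁ ⊔ core p M₂ ≤ M₁ ⊓ M₂)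
    (h₁ : ∀ T : Sylow 2 M₁, IsMulCommutative T) (h₂ : ∀ T : Sylow 2 M₂, IsMulCommutative T) : False := by
  have h₁B : core p M₁ ≤ M₁ ⊓ M₂ := le_sup_left.trans hO
  have h₂B : core p M₂ ≤ M₁ ⊓ M₂ := le_sup_right.trans hO
  have hbot : ∀ M : Subgroup G, Subgroup.centralizer (pCore p M : Set M) ≤ pCore p M →
      core p M = ⊥ → M = ⊥ := by
    intro M hc h
    have h' : pCore p M = ⊥ := (Subgroup.map_eq_bot_iff_of_injective _ M.subtype_injective).1 h
    rw [h'] at hc
    refine (Subgroup.eq_bot_iff_forall M).2 fun m hm => congrArg Subtype.val (Subgroup.mem_bot.1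
      (hc (show (⟨m, hm⟩ : M) ∈ _ from Subgroup.mem_centralizer_iff.2 fun z hz => ?_)))
    rw [Subgroup.mem_bot.1 hz, one_mul, mul_one]
  have hne₁ : core p M₁ ≠ ⊥ := by
    intro h
    have hM₁ := hbot M₁ hc₁ h
    have hM₂ := hbot M₂ hc₂ (le_bot_iff.1 ((h₂B.trans inf_le_left).trans hM₁.le))
    exact hne (hM₁.trans hM₂.symm)
  have hne₂ : core p M₂ ≠ ⊥ := by
    intro h
    have hM₂ := hbot M₂ hc₂ h
    have hM₁ := hbot M₁ hc₁ (le_bot_iff.1 ((h₁B.trans inf_le_right).trans hM₂.le))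
    exact hne (hM₁.trans hM₂.symm)
  -- a nontrivial subgroup normalized by both
  suffices h : ∃ W : Subgroup G, W ≠ ⊥ ∧ W ≤ M₁ ⊓ M₂ ∧
      M₁ ≤ Subgroup.normalizer (W : Set G) ∧ M₂ ≤ Subgroup.normalizer (W : Set G) by
    obtain ⟨W, hW1, hWB, hn₁, hn₂⟩ := h
    have e1 := (hP W hW1 hWB).1 hn₁
    have e2 := (hP W hW1 hWB).2 hn₂
    rw [inf_eq_left.2 hn₂] at e1
    rw [inf_eq_left.2 hn₁] at e2
    exact hne (e2.trans e1.symm)
  by_cases hp2 : p = 2
  · subst hp2
    have h12 : core 2 M₂ = core 2 M₁ := le_antisymm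
      (le_core_two hc₁ h₁ (isPGroup_core M₂) (h₂B.trans inf_le_left))
      (le_core_two hc₂ h₂ (isPGroup_core M₁) (h₁B.trans inf_le_right))
    exact ⟨core 2 M₁, hne₁, h₁B, le_normalizer_core 2 M₁, h12 ▸ le_normalizer_core 2 M₂⟩
  · have hst : ∀ (M : Subgroup G), (∀ T : Sylow 2 M, IsMulCommutative T) →
        ∀ (P : Subgroup M) [P.Normal], IsPGroup p P → IsPStableOn p P := fun M h P _ hPp =>
      GlaubermanZJ.isPStableOn_of_noSL2Section (noSL2Section_of_abelian_two hp2 h) P hPp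
    have hne' : ∀ M : Subgroup G, core p M ≠ ⊥ → pCore p M ≠ ⊥ := fun M h h' =>
      h (by rw [core, h', Subgroup.map_bot])
    obtain ⟨X, hX1, hX⟩ := maxIn_le_core hp2 M₁ M₂ (hst M₁ h₁) (hst M₂ h₂) hc₁ (hne' M₂ hne₂) h₁B h₂B
      fun A h1 h2 => (hP A h1 h2).2
    obtain ⟨X', -, hX'⟩ := maxIn_le_core hp2 M₂ M₁ (hst M₂ h₂) (hst M₁ h₁) hc₂ (hne' M₁ hne₁)
      (h₂B.trans (le_of_eq (inf_comm _ _))) (h₁B.trans (le_of_eq (inf_comm _ _)))
      fun A h1 h2 h3 => ((hP A h1 (h2.trans (le_of_eq (inf_comm _ _)))).1 h3).trans (inf_comm _ _)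
    rw [inf_comm M₂ M₁] at hX'
    set E := fun A : Subgroup G => IsMulCommutative A
    set F := core p (M₁ ⊓ M₂) with hF
    obtain ⟨A₁, hA₁⟩ := GlaubermanZJ.exists_maxIn (E := E)
      ⟨⟨fun a b => Subsingleton.elim _ _⟩⟩ F
    have heq : ∀ Q : Subgroup G, Q ≤ F → (∀ A ∈ GlaubermanZJ.maxIn E F, A ≤ Q) →
        GlaubermanZJ.maxIn E Q = GlaubermanZJ.maxIn E F := fun Q hQF hall =>
      Set.Subset.antisymm (GlaubermanZJ.maxIn_eq_of_subset hQF hA₁ (hall _ hA₁))
        fun A hA => ⟨hall A hA, hA.2.1, fun C h1 h2 => hA.2.2 C (h1.trans hQF) h2⟩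
    have hmapE : ∀ (φ : G ≃* G) A, E A → E (A.map φ.toMonoidHom) :=
      fun φ A h => GlaubermanZJ.isMulCommutative_map _ h
    refine ⟨sInf (GlaubermanZJ.maxIn E F), fun h => hX1 (le_bot_iff.1 (h ▸ le_sInf fun A hA => (hX A hA).2)),
      (sInf_le hA₁).trans (hA₁.1.trans (Subgroup.map_subtype_le _)), ?_, ?_⟩
    · rw [← heq (core p M₁) (le_core (isPGroup_core M₁) h₁B (inf_le_left.trans (le_normalizer_core p M₁)))
        fun A hA => (hX A hA).1]
      exact (le_normalizer_core p M₁).trans (GlaubermanZJ.normalizer_le_normalizer_sInf_maxIn hmapE _)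
    · rw [← heq (core p M₂) (le_core (isPGroup_core M₂) h₂B (inf_le_right.trans (le_normalizer_core p M₂)))
        fun A hA => (hX' A hA).1]
      exact (le_normalizer_core p M₂).trans (GlaubermanZJ.normalizer_le_normalizer_sInf_maxIn hmapE _)

end CfsgLib.LocalCharP.PrimitivePair
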